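import Cfsg.Agent.H691.Defs

/-!
# The almost simple quotient of a chief-like factor (helper691)

For normal subgroups `R ≤ N` of `Y` with `N / R` nonabelian simple and `Y' ≤ N`, the quotient `A = Y / C_Y(N / R)` is
almost simple with socle `N / R`.
-/

set_option autoImplicit false

namespace Cfsg.Agent.H691.AExt

open Cfsg

universe u

variable {Y : Type u} [Group Y]

/-- the elements centralising `N` modulo `R` -/
def KK (N R : Subgroup Y) [hN : N.Normal] [R.Normal] : Subgroup Y where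
  carrier := {y | ∀ n ∈ N, y * n * y⁻¹ * n⁻¹ ∈ R}
  mul_mem' := by
    intro a b ha hb n hn
    have h1 := ha (b * n * b⁻¹) (hN.conj_mem n hn b)
    have h2 := R.mul_mem h1 (hb n hn)
    have h3 : a * (b * n * b⁻¹) * a⁻¹ * (b * n * b⁻¹)⁻¹ * (b * n * b⁻¹ * n⁻¹) = a * b * n * (a * b)⁻¹ * n⁻¹ := by
      group
    rwa [h3] at h2
  one_mem' := by
    intro n _
    simp
  inv_mem' := by
    intro a ha n hn
    have h1 := ha (a⁻¹ * n * a) (by simpa using hN.conj_mem n hn a⁻¹)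
    have h2 := R.inv_mem h1
    have h3 : (a * (a⁻¹ * n * a) * a⁻¹ * (a⁻¹ * n * a)⁻¹)⁻¹ = a⁻¹ * n * a⁻¹⁻¹ * n⁻¹ := by group
    rwa [h3] at h2

variable (N R : Subgroup Y) [hN : N.Normal] [hR : R.Normal]

theorem mem_KK {y : Y} : y ∈ KK N R ↔ ∀ n ∈ N, y * n * y⁻¹ * n⁻¹ ∈ R := Iff.rfl

instance normal_KK : (KK N R).Normal := by
  refine ⟨fun y hy g n hn => ?_⟩
  have h1 := hy (g⁻¹ * n * g) (by simpa using hN.conj_mem n hn g⁻¹)
  have h2 := hR.conj_mem _ h1 g
  have h3 : g * (y * (g⁻¹ * n * g) * y⁻¹ * (g⁻¹ * n * g)⁻¹) * g⁻¹ = g * y * g⁻¹ * n * (g * y * g⁻¹)⁻¹ * n⁻¹ := by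
    group
  rwa [h3] at h2

theorem le_KK : R ≤ KK N R := by
  intro y hy n _
  have h1 : y * n * y⁻¹ * n⁻¹ = y * (n * y⁻¹ * n⁻¹) := by group
  rw [h1]
  exact R.mul_mem hy (hR.conj_mem _ (R.inv_mem hy) n)

variable {N R}

theorem inf_KK (hs : IsSimpleGroup (N ⧸ R.subgroupOf N)) (hna : ¬ IsMulCommutative (N ⧸ R.subgroupOf N)) {y : Y}
    (hyN : y ∈ N) (hy : y ∈ KK N R) : y ∈ R := by
  have h1 : (QuotientGroup.mk (⟨y, hyN⟩ : N) : N ⧸ R.subgroupOf N) ∈ Subgroup.center (N ⧸ R.subgroupOf N) := by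
    rw [Subgroup.mem_center_iff]
    intro g
    induction g using QuotientGroup.induction_on with
    | _ n =>
    rw [← QuotientGroup.mk_mul, ← QuotientGroup.mk_mul, QuotientGroup.eq]
    change (((n * ⟨y, hyN⟩)⁻¹ * (⟨y, hyN⟩ * n) : N) : Y) ∈ R
    have h5 : ((n : Y) * y)⁻¹ * (y * n) = y⁻¹ * ((n : Y)⁻¹ * (y * n * y⁻¹ * (n : Y)⁻¹) * n) * y := by group
    have h6 : (((n * ⟨y, hyN⟩)⁻¹ * (⟨y, hyN⟩ * n) : N) : Y) = y⁻¹ * ((n : Y)⁻¹ * (y * n * y⁻¹ * (n : Y)⁻¹) * n) * y := by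
      rw [← h5]
      rfl
    rw [h6]
    have h7 := hR.conj_mem _ (hR.conj_mem _ (hy n n.2) (n : Y)⁻¹) y⁻¹
    simpa using h7
  have h2 : Subgroup.center (N ⧸ R.subgroupOf N) = ⊥ := by
    rcases IsSimpleGroup.eq_bot_or_eq_top_of_normal (Subgroup.center (N ⧸ R.subgroupOf N)) inferInstance with h | h
    · exact h
    · exact absurd ⟨⟨fun a b => (Subgroup.mem_center_iff.1 (h ▸ Subgroup.mem_top b) a)⟩⟩ hna
  rw [h2, Subgroup.mem_bot, QuotientGroup.eq_one_iff] at h1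
  exact h1

/-- **The almost simple quotient.** -/
theorem exists_AS [Finite Y] (hRN : R ≤ N) (hs : IsSimpleGroup (N ⧸ R.subgroupOf N))
    (hna : ¬ IsMulCommutative (N ⧸ R.subgroupOf N)) (hcomm : commutator Y ≤ N) :
    AS (Y ⧸ KK N R) (N.map (QuotientGroup.mk' (KK N R))) ∧
      ∃ e : (N ⧸ R.subgroupOf N) ≃* (N.map (QuotientGroup.mk' (KK N R))),
        ∀ n : N, ((e (QuotientGroup.mk n) : N.map (QuotientGroup.mk' (KK N R))) : Y ⧸ KK N R) =
          QuotientGroup.mk' (KK N R) n := by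
  have _ := hRN
  set π := QuotientGroup.mk' (KK N R) with hπ
  have hsurj : Function.Surjective π := QuotientGroup.mk'_surjective _
  let f : N →* N.map π := π.subgroupMap N
  have hf : Function.Surjective f := π.subgroupMap_surjective N
  have hker : R.subgroupOf N = f.ker := by
    ext n
    rw [Subgroup.mem_subgroupOf, MonoidHom.mem_ker]
    have h1 : f n = 1 ↔ π (n : Y) = 1 := by
      rw [Subtype.ext_iff]
      rfl
    rw [h1, hπ, QuotientGroup.mk'_apply, QuotientGroup.eq_one_iff]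
    exact ⟨fun h => le_KK N R h, fun h => inf_KK hs hna n.2 h⟩
  let e : (N ⧸ R.subgroupOf N) ≃* (N.map π) :=
    (QuotientGroup.quotientMulEquivOfEq hker).trans (QuotientGroup.quotientKerEquivOfSurjective f hf)
  refine ⟨⟨hN.map π hsurj, ?_, ?_, ?_, ?_⟩, e, fun n => rfl⟩
  · exact e.symm.isSimpleGroup
  · intro hc
    exact hna ⟨⟨fun a b => e.injective (by rw [map_mul, map_mul]; exact hc.is_comm.comm _ _)⟩⟩
  · rw [eq_bot_iff]
    intro x hx
    obtain ⟨y, rfl⟩ := hsurj x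
    rw [Subgroup.mem_centralizer_iff] at hx
    rw [Subgroup.mem_bot, hπ, QuotientGroup.mk'_apply, QuotientGroup.eq_one_iff]
    intro n hn
    have h1 := hx (π n) (Subgroup.mem_map_of_mem π hn)
    have h2 : π (y * n * y⁻¹ * n⁻¹) = 1 := by
      rw [map_mul, map_mul, map_mul, map_inv, map_inv, ← h1]
      group
    rw [hπ, QuotientGroup.mk'_apply, QuotientGroup.eq_one_iff] at h2
    exact inf_KK hs hna (N.mul_mem (hN.conj_mem n hn y) (N.inv_mem hn)) h2
  · rw [commutator_def, ← Subgroup.map_top_of_surjective π hsurj, ← Subgroup.map_commutator]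
    exact Subgroup.map_mono hcomm

end Cfsg.Agent.H691.AExt
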